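import Cfsg.Agent.H906.T12Twelve

/-!
# Cores with socle `PSL_3(4)` in degree twelve: scalars of order four
-/

set_option autoImplicit false
set_option linter.unusedSectionVars false

namespace Cfsg.Agent.H906.T12

open Cfsg Cfsg.Geo SL3Par L34 H915.LD F4 T14
open scoped MatrixGroups commutatorElement Matrix

section main

variable {Ω V : Type*} [Field Ω] [AddCommGroup V] [Module Ω V] {R : Module.End Ω V → M3 → Prop}

/-- two anticommuting lifts of commuting involutions -/
theorem PR.anti [IsAlgClosed Ω] [FiniteDimensional Ω V] (hR : PR R) (h2 : (2 : Ω) ≠ 0)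
    (h12 : Module.finrank Ω V = 12) :
    ∃ (g g' : Module.End Ω V) (x x' : M3), R g x ∧ R g' x' ∧ g * g = 1 ∧ g' * g' = 1 ∧ x * x' = x' * x ∧
      g * g' = (-1 : Ω) • (g' * g) := by
  have hnt : Nontrivial V := Module.nontrivial_of_finrank_pos (R := Ω) (by rw [h12]; norm_num)
  obtain ⟨A, B, C, r, t, y, z, H, H'⟩ := hR.exists_sys
  have key : ∃ c b : F4, ∀ v, C c (A b v) = (-1 : Ω) • A b (C c v) := by
    obtain ⟨s, ζ, P⟩ := H.exists_pairing hR
    obtain ⟨S1, S1'⟩ := shift hR H H'
    obtain ⟨S2, S2'⟩ := shift hR.del S1 S1'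
    rcases sign_cases P.s1 P.sadd with hs | hs | hs | hs
    · exact (caseA hR h2 h12 H H' P hs).elim
    · obtain ⟨i, h⟩ := HB.of_pairing hR h2 h12 H P hs
      exact ⟨1, w, fun v => by rw [h.CA, one_mul, ch_w]⟩
    · obtain ⟨i, h⟩ := HB.of_pairing hR.del h2 h12 S1 P.shift hs
      exact ⟨u * 1, u * w, fun v => by rw [h.CA, one_mul, ch_w]⟩
    · obtain ⟨i, h⟩ := HB.of_pairing hR.del.del h2 h12 S2 P.shift.shift (fun x => by
        have e1 : w * (w * x) = u * x := (show ∀ x : F4, w * (w * x) = u * x by decide) x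
        rw [e1]
        exact hs x)
      exact ⟨u * (u * 1), u * (u * w), fun v => by rw [h.CA, one_mul, ch_w]⟩
  obtain ⟨c, b, hcb⟩ := key
  refine ⟨C c, A b, _, _, H.RC c, H.RA b, ?_, ?_, ?_, ?_⟩
  · ext v
    rw [Module.End.mul_apply, H.CC, add_same, H.C0]; rfl
  · ext v
    rw [Module.End.mul_apply, H.AA, add_same, H.A0]; rfl
  · exact (show ∀ c b : F4, mU 0 0 c * mU 0 b 0 = mU 0 b 0 * mU 0 0 c by decide) c b
  · ext v
    exact hcb v

end main

universe u v

variable {ι : Type} [Fintype ι] [DecidableEq ι] {F : Type u} [Field F] {P : Subgroup (GL ι F)}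
  {K : Type v} [Field K] [Fintype K] (e : Soc P ≃* Matrix.ProjectiveSpecialLinearGroup (Fin 3) K)

include e in
/-- no scalars of order four: `Two` -/
theorem two_of_four (hC : Core P) (h4 : ¬ 4 ∣ Nat.card ((scalars ι F).subgroupOf P)) : Two (ph e) where
  surj := ph_surj e
  cen := ph_cen e
  four := by
    intro z hz hz4
    by_contra hne
    apply h4
    rw [ker_comp e] at hz
    have hord : orderOf (⟨z, hz⟩ : (scalars ι F).subgroupOf P) = 2 ^ (1 + 1) := by
      apply orderOf_eq_prime_pow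
      · intro h0
        exact hne (congrArg Subtype.val h0)
      · exact Subtype.ext hz4
    have h5 := orderOf_dvd_natCard (⟨z, hz⟩ : (scalars ι F).subgroupOf P)
    rw [hord] at h5
    exact h5
  uniq := by
    intro z hz z' hz' h2 h2' h1 h1'
    have hne := hC.nonempty
    have key : ∀ z : P, z ∈ (ph e).ker → z ^ 2 = 1 → z ≠ 1 → ((z : GL ι F) : Matrix ι ι F) = (-1 : F) • 1 := by
      intro z hz h2 h1
      obtain ⟨c, -, hc⟩ := ph_scalar e hz
      have h3 : (((z ^ 2 : P) : GL ι F) : Matrix ι ι F) = (c ^ 2) • 1 := by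
        rw [Subgroup.coe_pow, Units.val_pow_eq_pow_val, hc, smul_pow, one_pow]
      rw [h2] at h3
      have h4 : (c ^ 2 : F) = 1 := by
        apply smul_ext (ι := ι)
        rw [← h3, one_smul]
        rfl
      have h5 : (c - 1) * (c + 1) = 0 := by linear_combination h4
      rcases mul_eq_zero.1 h5 with h6 | h6
      · exfalso
        apply h1
        apply Subtype.ext
        apply Units.ext
        rw [hc, sub_eq_zero.1 h6, one_smul]
        rfl
      · rw [hc, eq_neg_of_add_eq_zero_left h6]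
    apply Subtype.ext
    apply Units.ext
    rw [key z hz h2 h1, key z' hz' h2' h1']

/-- elements with commuting lifts -/
theorem four_dvd [Finite P] (hC : Core P) (hK : Fintype.card K = 4) (h2 : (2 : AlgebraicClosure F) ≠ 0) (k : F4 →+* K)
    {g g' : Module.End (AlgebraicClosure F) (ι → AlgebraicClosure F)} {x x' : M3} (hg : RP e k g x)
    (hg' : RP e k g' x') (h1 : g * g = 1) (h1' : g' * g' = 1) (hx : x * x' = x' * x)
    (hn : g * g' = (-1 : AlgebraicClosure F) • (g' * g)) : 4 ∣ Nat.card ((scalars ι F).subgroupOf P) := by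
  by_contra h4
  have hT := two_of_four e hC h4
  obtain ⟨l, X, s, c, a1, a2, a3, a4, a5, a6⟩ := hg
  obtain ⟨l', X', s', c', b1, b2, b3, b4, b5, b6⟩ := hg'
  have sq : ∀ (l : P) (g : Module.End (AlgebraicClosure F) (ι → AlgebraicClosure F)) (c : AlgebraicClosure F), c ≠ 0 →
      g * g = 1 → g = c • rep P l → ∃ (m : P) (d : AlgebraicClosure F), ph e m = ph e l ∧ m ^ 2 = 1 ∧ d ≠ 0 ∧ g = d • rep P m := by
    intro l g c hc hgg hg
    have e1 : rep P (l * l) = (c * c)⁻¹ • 1 := by
      rw [hg, smul_mul_smul_comm, ← map_mul] at hgg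
      rw [← hgg, smul_smul, inv_mul_cancel₀ (mul_ne_zero hc hc), one_smul]
    have e2 := rep_ker e e1
    rw [MonoidHom.mem_ker, map_mul, ← pow_two] at e2
    obtain ⟨m, hm, hm2⟩ := hT.lift_two hK (ph e l) e2
    have e3 : l * m⁻¹ ∈ (ph e).ker := by rw [MonoidHom.mem_ker, map_mul, map_inv, hm, mul_inv_cancel]
    obtain ⟨d, hd⟩ := rep_scalar e e3
    have e4 : rep P l = d • rep P m := by
      calc rep P l = rep P (l * m⁻¹) * rep P m := by rw [← map_mul, inv_mul_cancel_right]
        _ = d • rep P m := by rw [hd, smul_mul_assoc, one_mul]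
    have hd0 : d ≠ 0 := by
      rintro rfl
      have hne := hC.nonempty
      rw [zero_smul] at e4
      have e5 : rep P l * rep P l⁻¹ = 1 := by rw [← map_mul, mul_inv_cancel, map_one]
      rw [e4, zero_mul] at e5
      exact zero_ne_one e5
    exact ⟨m, c * d, hm, hm2, mul_ne_zero hc hd0, by rw [hg, e4, smul_smul]⟩
  obtain ⟨m, d, c1, c2, c3, c4⟩ := sq l g c a5 h1 a6
  obtain ⟨m', d', c1', c2', c3', c4'⟩ := sq l' g' c' b5 h1' b6
  have e1 : ph e m * ph e m' = ph e m' * ph e m := by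
    rw [c1, c1', a1, b1, ← map_mul, ← map_mul]
    congr 1
    apply Subtype.ext
    change X.1 * X'.1 = X'.1 * X.1
    rw [a3, b3, smul_mul_smul_comm, smul_mul_smul_comm, ← Matrix.map_mul, ← Matrix.map_mul, hx, mul_comm s]
  have e2 := hT.comm_of hK e1 c2 c2'
  have hne := hC.nonempty
  rw [c4, c4', smul_mul_smul_comm, smul_mul_smul_comm, ← map_mul, ← map_mul, e2, smul_smul, mul_comm d'] at hn
  have e3 : rep P (m' * m) = (-1 : AlgebraicClosure F) • rep P (m' * m) := by
    have e4 := congrArg (fun x => (d * d')⁻¹ • x) hn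
    simp only [smul_smul] at e4
    rw [inv_mul_cancel₀ (mul_ne_zero c3 c3'), one_smul] at e4
    have e5 : (d * d')⁻¹ * (-1 * (d * d')) = -1 := by
      rw [mul_comm (-1 : AlgebraicClosure F), ← mul_assoc, inv_mul_cancel₀ (mul_ne_zero c3 c3'), one_mul]
    rwa [e5] at e4
  have e4 : rep P (m' * m) = 0 := LinearMap.ext fun v => funext fun a => by
    have h := congrFun (LinearMap.congr_fun e3 v) a
    rw [LinearMap.smul_apply, Pi.smul_apply, smul_eq_mul] at h
    have h3 : (2 : AlgebraicClosure F) * (rep P (m' * m)) v a = 0 := by linear_combination h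
    exact (mul_eq_zero.1 h3).resolve_left h2
  have e5 : rep P (m' * m) * rep P (m' * m)⁻¹ = 1 := by rw [← map_mul, mul_inv_cancel, map_one]
  rw [e4, zero_mul] at e5
  exact zero_ne_one e5

/-- **Cores with socle `PSL_3(4)` in degree twelve.** -/
theorem l34_twelve' [Finite F] (p : ℕ) [hp : Fact p.Prime] [CharP F p] (hC : Core P) (hp2 : p ≠ 2)
    (hK : Fintype.card K = 4) (hn : Fintype.card ι = 12)
    (e : Soc P ≃* Matrix.ProjectiveSpecialLinearGroup (Fin 3) K) :
    p = 7 ∧ 12 ∣ Nat.card ((scalars ι F).subgroupOf P) ∧ Fr P 49 := by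
  obtain ⟨h7, h3, hF⟩ := l34_twelve p hC hp2 hK hn e
  refine ⟨h7, ?_, hF⟩
  obtain ⟨k, hk⟩ := exists_k hK
  have h2Ω := two_ne (F := F) p hp2 (AlgebraicClosure F)
  have hR := RP_pr e hC k hk
  obtain ⟨g, g', x, x', q1, q2, q3, q4, q5, q6⟩ := hR.anti h2Ω (by rw [Module.finrank_fintype_fun_eq_card, hn])
  have h4 := four_dvd e hC hK h2Ω k q1 q2 q3 q4 q5 q6
  have h12 : 3 * 4 ∣ Nat.card ((scalars ι F).subgroupOf P) := Nat.Coprime.mul_dvd_of_dvd_of_dvd (by norm_num) h3 h4
  exact h12

end Cfsg.Agent.H906.T12
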